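import Cfsg.Agent.HJ.FB
import Cfsg.Agent.BG.S1
import Cfsg.Agent.Gen2.FixCount

/-! The Sylow 5-subgroups of `J2` (`syl5`) (helper26). -/

set_option autoImplicit false
set_option maxRecDepth 100000
set_option exponentiation.threshold 100000

namespace Cfsg.Agent.HJ

open Subgroup Cfsg.Agent.Known Cfsg.Agent.Comp Cfsg.Agent.Ico.T MulAction

variable {G : Type*} [Group G] [Finite G]

theorem card_norm5 (hN : Nat.card G = 604800) {P : Subgroup G} (hP : Nat.card P = 5 ^ 2) (h5 : ∀ x ∈ P, x ^ 5 = 1)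
    (hC : centralizer (P : Set G) = P) {r : G} (hr : r ∈ normalizer (P : Set G)) (h3 : orderOf r = 3) :
    Nat.card (normalizer (P : Set G)) = 300 := by
  haveI : Fact (Nat.Prime 5) := ⟨Nat.prime_five⟩
  obtain ⟨f, hf⟩ := @BG.commGroup_GL 5 2 _ P (IsPGroup.commGroupOfCardEqPrimeSq hP) _ (fun x => Subtype.ext (h5 x x.2)) hP
  have h1 := (Gen2.relIndex_centralizer_dvd_card_mulAut P).trans (card_dvd_of_injective f hf)
  rw [Matrix.card_GL_field, ZMod.card, hC, show ∏ i : Fin 2, (5 ^ 2 - 5 ^ (i : ℕ)) = 480 by decide] at h1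
  have h2 := (P.subgroupOf (normalizer (P : Set G))).card_mul_index
  rw [Nat.card_congr (subgroupOfEquivOfLe le_normalizer).toEquiv, hP] at h2
  obtain ⟨Q, rfl⟩ := exists_sylow hN (by decide) hP
  have h4 := card_sylow_modEq_one 5 G
  have h6 := (normalizer (Q : Set G)).card_mul_index
  rw [← Q.card_eq_index_normalizer, hN] at h6
  have h7 := h3 ▸ orderOf_dvd_natCard _ hr
  change _ * relIndex _ _ = _ at h2
  rw [← h2] at h7 ⊢
  change Nat.card (normalizer ((Q : Subgroup G) : Set G)) * _ = _ at h6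
  rw [← h2] at h6
  generalize relIndex (Q : Subgroup G) _ = m at *
  generalize Nat.card (Sylow 5 G) = k at *
  have h8 : m ∈ Nat.divisors 96 := Nat.mem_divisors.2 ⟨Nat.dvd_gcd h1 (show m ∣ 24192 from ⟨k, by nlinarith⟩), by decide⟩
  unfold Nat.ModEq at h4
  fin_cases h8 <;> omega

section model

variable [MulAction G (Fin 100)] [FaithfulSMul G (Fin 100)]

/-- a transversal of a Sylow 5-subgroup. -/
noncomputable def T5 : List (ℕ × List ℕ) := [(0, mapL wc [[], [14, 10, 4], [6, 8, 14], [14, 10, 4, 14, 10, 4], [6, 8, 14, 6, 8, 14],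
  [12, 6, 14, 12, 2, 14, 0], [2, 14, 0, 12, 14, 12, 4], [14, 12, 8, 4, 14, 6, 8], [10, 4, 14, 6, 10, 12, 14],
  [14, 10, 12, 14, 12, 2, 14, 0], [14, 6, 0, 14, 4, 8, 12, 2], [4, 10, 4, 14, 4, 8, 12, 2], [12, 6, 8, 4, 14, 6, 8, 6],
  [2, 14, 0, 14, 12, 10, 14, 10], [12, 6, 8, 4, 14, 4, 2, 14], [10, 12, 8, 12, 10, 14, 12, 8, 0], [8, 8, 12, 4, 10, 14, 10, 4, 4],
  [14, 8, 0, 12, 10, 14, 10, 4, 4], [4, 4, 8, 14, 8, 12, 6, 8, 8], [10, 2, 12, 14, 8, 12, 10, 12, 8], [8, 14, 0, 14, 12, 4, 14, 8, 12],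
  [6, 14, 8, 12, 8, 12, 10, 14, 8, 0], [14, 8, 12, 10, 12, 10, 14, 10, 6, 2], [12, 14, 2, 14, 0, 14, 6, 8, 14, 2],
  [8, 6, 10, 14, 8, 12, 10, 12, 14, 4]])]

theorem cent5 (hN : Nat.card G = 604800) (h0 : CodesIn (PRep E 7 127) tabs (⊤ : Subgroup G)) {a : G}
    (ha : CRep E 7 127 (wc [12, 6, 14, 12, 2, 14, 0]) a) : Nat.card (centralizer ({a} : Set G)) = 300 ∧
      (∀ x : Fin 100, Nat.card ↥(centralizer ({a} : Set G) ⊓ stabilizer G x) = 3) ∧
      ∀ c, CRep E 7 127 (wc [14, 10, 4]) c → Nat.card ↥(centralizer ({a} : Set G) ⊓ centralizer {c}) ≤ 25 := by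
  have hG := isGrp_CRep E par (G := G)
  have hC := isCanon_CRep E par (G := G)
  have hw : ∀ ws, CodesIn (PRep E 7 127) (mapL wc ws) (⊤ : Subgroup G) := (isGrp_PRep E par).mapW h0
  have hA := ((hw [[14, 10, 4], [12, 6, 14, 0], [8, 8, 12, 10, 12, 6, 8, 8]]).toCRep (by decide +kernel)).centralizer hG hC.func ha
    (by decide +kernel)
  rw [top_inf_eq] at hA
  have h1 := card_stab_le (K := (⊤ : Subgroup G)) (a := 100) (b := 6048) ((nble.1 (by simp only [keyedPt, Keyed.orb]; decide +kernel)).trans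
    (Keyed.le_ncard_orbit (C := keyedPt E 7 127 G) h0 (a := 0) (x := 0) rfl 101)) (by decide) (by rw [card_top, hN])
  have h2 := card_stab_le (a := 63) (b := 96) ((nble.1 (by simp only [keyedPt, Keyed.orb]; decide +kernel)).trans
    (Keyed.le_ncard_orbit (C := keyedPt E 7 127 G) ((h0.of_subset (L' := [t0, t4, t6]) (by decide +kernel)).stab (keyedPt E 7 127 G)
      (a := 0) (x := 0) rfl (by simp only [keyedPt]; decide +kernel)) (a := 8) (x := 8) rfl 64)) (by decide) h1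
  have h3 := card_stab_le (a := 32) (b := 3) ((nble.1 (by simp only [keyedPt, Keyed.orb]; decide +kernel)).trans
    (Keyed.le_ncard_orbit (C := keyedPt E 7 127 G) (((hw [[10, 4, 8], [12, 8, 12, 4]]).stab (keyedPt E 7 127 G)
      (a := 0) (x := 0) rfl (by simp only [keyedPt]; decide +kernel)).stab (keyedPt E 7 127 G)
      (a := 8) (x := 8) rfl (by simp only [keyedPt]; decide +kernel)) (a := 9) (x := 9) rfl 33)) (by decide) h2
  have h4 : ∀ g ∈ centralizer ({a} : Set G), ∀ x : Fin 100, g • x = x → g • a • x = a • x := fun g hg x hx => by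
    rw [← mul_smul, mem_centralizer_singleton_iff.1 hg, mul_smul, hx]
  have e8 : a • (0 : Fin 100) = 8 := Fin.ext ((ha.1 0).symm.trans (by decide +kernel))
  have e9 : a • (8 : Fin 100) = 9 := Fin.ext ((ha.1 8).symm.trans (by decide +kernel))
  have h5 : orbit (centralizer ({a} : Set G)) (0 : Fin 100) = Set.univ :=
    Keyed.orbit_eq_of_count (C := keyedPt E 7 127 G) hA.toPRep (a := 0) (x := 0) rfl id 101 Set.finite_univ trivial (fun _ _ _ _ => trivial)
      (by rw [Set.ncard_univ, Nat.card_fin]; exact nble.1 (by simp only [keyedPt, Keyed.orbH]; decide +kernel))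
  have h6 : ∀ x : Fin 100, (orbit (centralizer ({a} : Set G)) x).ncard = 100 := fun x => by
    rw [orbit_eq_iff.2 (h5.ge trivial), h5, Set.ncard_univ, Nat.card_fin]
  have h7 : Nat.card (centralizer ({a} : Set G)) = 300 := by
    refine le_antisymm ?_ (le_trans (nble.1 (by decide +kernel)) (chainP_le_card (B := [0, 1]) (by decide) hA.toPRep 101))
    rw [card_eq_ncard_orbit_mul _ (0 : Fin 100), h6]
    refine Nat.mul_le_mul_left 100 ((card_le_of_le fun g hg => ?_).trans h3)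
    have := e8 ▸ h4 g hg.1 _ hg.2
    exact ⟨⟨⟨trivial, hg.2⟩, this⟩, e9 ▸ h4 g hg.1 _ this⟩
  refine ⟨h7, fun x => ?_, fun c hc => stabilizer_toCj c ▸ card_stab_le (a := 12) ((nble.1 (by
    simp only [keyedCj, Keyed.orbH]; decide +kernel)).trans (Keyed.le_ncard_orbitH (C := keyedCj hG hC) hA (x := toCj c) hc (· % 33) 13))
      (by decide) h7.le⟩
  have := card_eq_ncard_orbit_mul (centralizer ({a} : Set G)) x
  rw [h6, h7] at this
  omega

theorem syl5' (hN : Nat.card G = 604800) (h0 : CodesIn (PRep E 7 127) tabs (⊤ : Subgroup G)) : ∃ P : Subgroup G,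
    Nat.card P = 5 ^ 2 ∧ centralizer (P : Set G) = P ∧ Nat.card (normalizer (P : Set G)) = 300 ∧
      ∃ X Y : Subgroup G, Nat.card X = 5 ∧ Nat.card Y = 5 ∧ (∀ g : G, X.map (MulAut.conj g).toMonoidHom ≠ Y) ∧
        ∀ W : Subgroup G, Nat.card W = 5 →
          ∃ g : G, W.map (MulAut.conj g).toMonoidHom = X ∨ W.map (MulAut.conj g).toMonoidHom = Y := by
  haveI : Fact (Nat.Prime 5) := ⟨Nat.prime_five⟩
  have hG := isGrp_CRep E par (G := G)
  have hC := isCanon_CRep E par (G := G)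
  have hw : ∀ ws, CodesIn (PRep E 7 127) (mapL wc ws) (⊤ : Subgroup G) := (isGrp_PRep E par).mapW h0
  have hT : CodesIn (PRep E 7 127) (flatT T5) (⊤ : Subgroup G) := by
    rw [T5, flatT_cons]; dsimp only; exact .append (hw _) (.nil _)
  have hP := card_closure_of_ss par T5 hT (N := 25) (by decide +kernel)
  have hl := lists_of_trans par T5 hT.closure.of_flatT hP (by decide +kernel)
  have hn := codes_norm hT (hw [[2, 12, 8, 12, 8, 12, 0]]) (by decide +kernel)
  have hm := fun {c g} => mem_of_sift par hT.closure (c := c) (g := g)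
  set P := closure (genSet (PRep E 7 127 : ℕ → G → Prop) (flatT T5))
  obtain ⟨a, ha⟩ := exists_wc h0 [12, 6, 14, 12, 2, 14, 0] (by decide +kernel)
  obtain ⟨c, hc⟩ := exists_wc h0 [14, 10, 4] (by decide +kernel)
  obtain ⟨s, hs⟩ := exists_wc h0 [12, 4, 14, 12, 6] (by decide +kernel)
  obtain ⟨r, hr, hr'⟩ := hn.toCRep (by decide +kernel) _ List.mem_cons_self
  have o : ∀ {q : ℕ}, q.Prime → ∀ p : ℕ, p.Prime → p ∣ q → p ∈ [q] := fun hq p hp h => by
    simp [(Nat.prime_dvd_prime_iff_eq hp hq).1 h]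
  have oa := hG.orderOf_eq hC ha (by decide) (o Nat.prime_five) (by decide +kernel)
  have oc := hG.orderOf_eq hC hc (by decide) (o Nat.prime_five) (by decide +kernel)
  obtain ⟨-, h2, h3⟩ := cent5 hN h0 ha
  have hc' : centralizer (P : Set G) = P := by
    refine (eq_of_le_of_card_ge (K := centralizer (P : Set G)) (fun x hx y hy => congrArg Subtype.val
      ((IsPGroup.isMulCommutative_of_card_eq_prime_sq (p := 5) hP).is_comm.comm ⟨y, hy⟩ ⟨x, hx⟩)) ?_).symm
    exact (card_le_of_le (le_inf (centralizer_le (Set.singleton_subset_iff.2 (hm ha.1 (by decide +kernel))))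
      (centralizer_le (Set.singleton_subset_iff.2 (hm hc.1 (by decide +kernel)))))).trans ((h3 c hc).trans hP.ge)
  refine ⟨P, hP, hc', card_norm5 hN hP (fun x hx => ?_) hc' hr
    (hG.orderOf_eq hC hr' (by decide) (o Nat.prime_three) (by decide +kernel)), zpowers a, zpowers c,
    by rw [Nat.card_zpowers, oa], by rw [Nat.card_zpowers, oc], fun g h => ?_, fun W hW => ?_⟩
  · obtain ⟨d, hd, e⟩ := hl.forall (f := fun d => Nat.beq (powC (mulP 100 7 127) (oneP 100 7) d 5) (oneP 100 7))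
      (by decide +kernel) hx
    exact (hC.eq_iff (hG.pow hd 5) hG.one).2 (nbeq.1 e)
  · rw [map_conj_zp] at h
    have h4 : s * (g * a * g⁻¹) = g * a * g⁻¹ * s := mem_cent_zp.1 (h ▸ mem_cent_zp.2 ((commC_iff hG hC hs hc).2 (by decide +kernel)))
    have h5 : s • (2 : Fin 100) = 2 := Fin.ext ((hs.1 2).symm.trans (by decide +kernel))
    have h6 := orderOf_dvd_natCard (centralizer ({a} : Set G) ⊓ stabilizer G (g⁻¹ • (2 : Fin 100))) (x := g⁻¹ * s * g)
      ⟨mem_centralizer_singleton_iff.2 (by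
        rw [show g⁻¹ * s * g * a = g⁻¹ * (s * (g * a * g⁻¹)) * g by group, h4]; group), by simp [mul_smul, h5]⟩
    rw [h2, show g⁻¹ * s * g = MulAut.conj g⁻¹ s by simp, MulEquiv.orderOf_eq,
      hG.orderOf_eq hC hs (by decide) (o Nat.prime_two) (by decide +kernel)] at h6
    exact absurd h6 (by decide)
  · obtain ⟨w, rfl, ow⟩ := exists_zp Nat.prime_five hW
    obtain ⟨g, -, hg⟩ := exists_conj_mem_sylow (K := ⊤) (k := 2) (j := 1) Nat.prime_five le_top hP (card_top.trans hN) (by decide)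
      (x := w) trivial (by rw [pow_one, ← ow, pow_orderOf_eq_one])
    obtain ⟨d, hd, e⟩ := hl.forall (f := fun d => anyLt 3 fun j => force (conjC (mulP 100 7 127) (invP 100 7 127)
      (powC (mulP 100 7 127) (oneP 100 7) (wc [2, 12, 8, 12, 8, 12, 0]) j) d) fun d => anyLt 5 fun i =>
        bor (Nat.beq d (powC (mulP 100 7 127) (oneP 100 7) (wc [12, 6, 14, 12, 2, 14, 0]) i))
          (Nat.beq d (powC (mulP 100 7 127) (oneP 100 7) (wc [14, 10, 4]) i))) (by decide +kernel) hg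
    simp only [anyLt_iff, force_eq, bor_eq, Bool.or_eq_true, nbeq] at e
    obtain ⟨j, -, i, -, e⟩ := e
    have h4 := hG.conj (hG.pow hr' j) hd
    have h5 : ∀ y : G, orderOf y = 5 → r ^ j * (g * w * g⁻¹) * (r ^ j)⁻¹ = y ^ i →
        (zpowers w).map (MulAut.conj (r ^ j * g)).toMonoidHom = zpowers y := fun y hy e => by
      have e' : r ^ j * g * w * (r ^ j * g)⁻¹ = y ^ i := by rw [← e]; group
      rw [map_conj_zp]
      refine zpowers_eq_of_prime (hy ▸ Nat.prime_five) (e' ▸ npow_mem_zpowers y i) fun h => ?_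
      rw [conj_eq_one_iff.1 h, orderOf_one] at ow
      exact absurd ow (by decide)
    exact ⟨r ^ j * g, e.imp (fun e => h5 a oa ((hC.eq_iff h4 (hG.pow ha i)).2 e)) fun e => h5 c oc ((hC.eq_iff h4 (hG.pow hc i)).2 e)⟩

end model

theorem syl5 (h : Spor.IsoJ2 G) (P : Sylow 5 G) : centralizer ((P : Subgroup G) : Set G) = P ∧ Nat.card P = 25 ∧
    Nat.card (normalizer ((P : Subgroup G) : Set G)) = 300 ∧ ∃ X Y : Subgroup G, Nat.card X = 5 ∧ Nat.card Y = 5 ∧
      (∀ g : G, X.map (MulAut.conj g).toMonoidHom ≠ Y) ∧ ∀ W : Subgroup G, Nat.card W = 5 →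
        ∃ g : G, W.map (MulAut.conj g).toMonoidHom = X ∨ W.map (MulAut.conj g).toMonoidHom = Y := by
  haveI : Fact (Nat.Prime 5) := ⟨Nat.prime_five⟩
  obtain ⟨_, _, hN, h0⟩ := modelJ2 h
  obtain ⟨Q, h1, h2, h3, h4⟩ := syl5' hN h0
  obtain ⟨g, hg⟩ := exists_conj_sylow h1 hN (by decide) P
  refine ⟨?_, (Nat.card_congr (conjEquiv g hg).toEquiv).symm.trans h1, ?_, h4⟩
  · rw [← hg]; exact (Loc.cj_centralizer g Q).symm.trans (congrArg _ h2)
  · rw [← hg, ← map_conj_normalizer, Comp.card_map_conj, h3]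

end Cfsg.Agent.HJ
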