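import Cfsg.Agent.HJ.FC
import Cfsg.Agent.Ico.Tab
import Cfsg.Agent.Comp.Loc
import Cfsg.Agent.Fus.Cert
import Cfsg.Agent.Fus.Exs

/-! The Sylow 3-subgroups of `J2` (`syl3`) (helper26). -/

set_option autoImplicit false
set_option maxRecDepth 100000
set_option exponentiation.threshold 100000

namespace Cfsg.Agent.HJ

open Subgroup Cfsg.Agent.Known Cfsg.Agent.Comp Cfsg.Agent.Ico.T MulAction

/-- the code of a word. -/
noncomputable def wc (w : List ℕ) : ℕ := evalW (mulP 100 7 127) (invP 100 7 127) (oneP 100 7) tabs w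

theorem modelJ2 {G : Type*} [Group G] (h : Spor.IsoJ2 G) : ∃ (_ : MulAction G (Fin 100)) (_ : FaithfulSMul G (Fin 100)),
    Nat.card G = 604800 ∧ CodesIn (PRep E 7 127) tabs (⊤ : Subgroup G) := by
  obtain ⟨e⟩ := equivJ2 h
  have M := mdl.congr e
  exact ⟨M.mact, M.faithful, M.card, (by decide +kernel : gensP 100 7 8 act = tabs) ▸ M.codes_gens par⟩

variable {G : Type*} [Group G] [Finite G]

section model

variable [MulAction G (Fin 100)] [FaithfulSMul G (Fin 100)]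

omit [Finite G] [FaithfulSMul G (Fin 100)] in
theorem exists_wc (h0 : CodesIn (PRep E 7 127) tabs (⊤ : Subgroup G)) (w : List ℕ)
    (h : Nat.blt (wc w) (Nat.pow 2 (Nat.mul 7 100)) = true) : ∃ g : G, CRep E 7 127 (wc w) g :=
  let ⟨g, _, r⟩ := (isGrp_PRep E par).evalW_mem h0 w; ⟨g, r, nblt.1 h⟩

theorem codes_norm {Ts : List (ℕ × List ℕ)} (hT : CodesIn (PRep E 7 127) (flatT Ts) (⊤ : Subgroup G)) {L : List ℕ}
    (hL : CodesIn (PRep E 7 127) L (⊤ : Subgroup G)) (h : allL L (fun c => allL (flatT Ts) fun t =>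
      sift 100 7 127 Ts (conjC (mulP 100 7 127) (invP 100 7 127) c t)) = true) :
    CodesIn (PRep E 7 127) L (normalizer (closure (genSet (PRep E 7 127 : ℕ → G → Prop) (flatT Ts)) : Set G)) := fun c hc =>
  let ⟨g, _, r⟩ := hL c hc
  ⟨g, mem_normalizer_closure fun _ ⟨t, ht, rt⟩ => mem_of_sift par hT.closure ((isGrp_PRep E par).conj r rt)
    (allL_iff.1 (allL_iff.1 h c hc) t ht), r⟩

/-- transversals of a Sylow 3-subgroup. -/
noncomputable def T3 : List (ℕ × List ℕ) := [(25, mapL wc [[], [2, 12, 10, 12, 8, 12, 2], [12, 10, 12, 8, 12, 0, 0],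
  [0, 12, 10, 12, 8, 12, 0], [12, 8, 12, 4, 8, 0, 12], [10, 12, 8, 2, 12, 8, 12, 8], [14, 8, 0, 12, 8, 12, 14, 0],
  [14, 12, 10, 12, 10, 2, 14, 2], [0, 14, 8, 0, 12, 8, 12, 14]]), (1, mapL wc [[], [8, 4], [6, 10]])]

theorem syl3' (hN : Nat.card G = 604800) (h0 : CodesIn (PRep E 7 127) tabs (⊤ : Subgroup G)) : ∃ P : Subgroup G,
    Nat.card P = 3 ^ 3 ∧ IsExtraspecial 3 P ∧ Nat.card (normalizer (P : Set G)) = 216 ∧
      ∃ a b : G, orderOf a = 3 ∧ orderOf b = 3 ∧ ¬ IsConj a b ∧ ∀ c : G, orderOf c = 3 → IsConj c a ∨ IsConj c b := by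
  haveI : Fact (Nat.Prime 3) := ⟨Nat.prime_three⟩
  have hG := isGrp_CRep E par (G := G)
  have hC := isCanon_CRep E par (G := G)
  have hw : ∀ ws, CodesIn (PRep E 7 127) (mapL wc ws) (⊤ : Subgroup G) := (isGrp_PRep E par).mapW h0
  have hT : CodesIn (PRep E 7 127) (flatT T3) (⊤ : Subgroup G) := by
    rw [T3, flatT_cons, flatT_cons]; dsimp only; exact .append (hw _) (.append (hw _) (.nil _))
  have hP := card_closure_of_ss par T3 hT (N := 27) (by decide +kernel)
  have hl := lists_of_trans par T3 hT.closure.of_flatT hP (by decide +kernel)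
  have hn := codes_norm hT (hw [[2, 12, 10, 12, 8, 12, 2], [12, 10, 12, 8, 12, 0, 0], [4, 10, 4], [14, 12, 10, 12, 10, 2, 14]])
    (by decide +kernel)
  have hm := fun {c g} => mem_of_sift par hT.closure (c := c) (g := g)
  set P := closure (genSet (PRep E 7 127 : ℕ → G → Prop) (flatT T3))
  obtain ⟨a, ha⟩ := exists_wc h0 [8, 4] (by decide +kernel)
  obtain ⟨b, hb⟩ := exists_wc h0 [2, 12, 10, 12, 8, 12, 2] (by decide +kernel)
  obtain ⟨c, hc⟩ := exists_wc h0 [12, 10, 12, 8, 12, 0, 0] (by decide +kernel)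
  have o3 : ∀ p, p.Prime → p ∣ 3 → p ∈ [3] := fun p hp h => by
    simp [(Nat.prime_dvd_prime_iff_eq hp Nat.prime_three).1 h]
  have hbP := hm hb.1 (by decide +kernel)
  have hcP := hm hc.1 (by decide +kernel)
  refine ⟨P, hP, Fus.es_of_card hP fun h => absurd ((commC_iff hG hC hb hc).1 (h hcP b hbP)) (by decide +kernel),
    le_antisymm ?_ (le_trans (nble.1 (by decide +kernel)) (chainP_le_card (B := [1, 2]) (by decide) hn 100)), a, b,
    hG.orderOf_eq hC ha (by decide) o3 (by decide +kernel), hG.orderOf_eq hC hb (by decide) o3 (by decide +kernel),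
    fun h => ?_, fun x hx => ?_⟩
  · have h1 := card_stab_le (K := (⊤ : Subgroup G)) (a := 100) (b := 6048) ((nble.1 (by simp only [keyedPt, Keyed.orb]; decide +kernel)).trans
      (Keyed.le_ncard_orbit (C := keyedPt E 7 127 G) h0 (a := 0) (x := 0) rfl 101)) (by decide) (by rw [card_top, hN])
    have h2 := card_stab_le (a := 56) (b := 108) ((nble.1 (by simp only [keyedCj, Keyed.orbH]; decide +kernel)).trans (Keyed.le_ncard_orbitH
      (C := keyedCj hG hC) (((h0.of_subset (L' := [t0, t4, t6]) (by decide +kernel)).stab (keyedPt E 7 127 G) (a := 0) (x := 0) rfl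
        (by simp only [keyedPt]; decide +kernel)).toCRep (by decide +kernel)) (x := toCj a) ha (· % 491) 57)) (by decide) h1
    have h3 : normalizer (P : Set G) ≤ stabilizer G (0 : Fin 100) := fun g hg => by
      have h3 : ∀ s ∈ (P : Set G), s • (0 : Fin 100) = 0 := fix_closure fun s ⟨d, hd, r⟩ => Fin.ext
        ((r 0).symm.trans (nbeq.1 (allL_iff.1 (show allL (flatT T3) (fun c => Nat.beq (get 7 127 c 0) 0) = true by
          decide +kernel) d hd)))
      have h4 := smul_fixed_of_norm (inv_conj_mem_of_normalizer hg) h3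
      have h5 := allLt_iff.1 (show allLt 100 (fun i => bor (Nat.beq i 0) (not (band
        (Nat.beq (get 7 127 (wc [2, 12, 10, 12, 8, 12, 2]) i) i) (Nat.beq (get 7 127 (wc [12, 10, 12, 8, 12, 0, 0]) i) i)))) = true
        by decide +kernel) _ (g • (0 : Fin 100)).2
      rw [show get 7 127 _ (g • (0 : Fin 100)).1 = _ from hb.1 _, show get 7 127 _ (g • (0 : Fin 100)).1 = _ from hc.1 _,
        h4 b hbP, h4 c hcP] at h5
      exact Fin.ext (by simpa [E, encFin] using h5)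
    have h4 := hl.ncard_le hC.func (p := IsConj a) (pb := fun c => Nat.beq (Fus.fixP 100 7 127 c) 10)
      fun d g _ r h => by
        obtain ⟨u, rfl⟩ := isConj_iff.1 h
        rw [← Fus.fixP_conj ha.1 r.1]; decide +kernel
    have h5 : (orbit (normalizer (P : Set G)) (toCj a)).ncard ≤ 2 := by
      refine le_trans (Set.ncard_le_ncard (t := {g : G | g ∈ P ∧ IsConj a g}) ?_ (Set.toFinite _)) (h4.trans (nble.1 (by decide +kernel)))
      rintro _ ⟨u, rfl⟩
      exact ⟨mem_normalizer_iff.1 u.2 a |>.1 (hm ha.1 (by decide +kernel)), isConj_iff.2 ⟨u, rfl⟩⟩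
    rw [card_eq_ncard_orbit_mul _ (toCj a)]
    exact Nat.mul_le_mul h5 ((card_le_of_le (inf_le_inf_right _ (le_inf le_top h3))).trans h2)
  · obtain ⟨u, rfl⟩ := isConj_iff.1 h
    exact absurd (Fus.fixP_conj ha.1 hb.1) (by decide +kernel)
  · refine (conj_cases hG hC (K := ⊤) (k := 3) Nat.prime_three le_top hP (card_top.trans hN) (by decide) hl
      ((hw [[], [4, 10, 4]]).toCRep (by decide +kernel)) ((hw [[], [0], [2], [0, 0], [4, 10, 4], [8, 8, 6], [8, 6, 8], [10, 4, 4],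
      [12, 10, 12, 8, 12], [0, 12, 10, 12, 8, 12], [2, 12, 10, 12, 8, 12], [12, 8, 12, 6, 10, 12, 8], [12, 4, 8, 12, 8, 12, 8],
      [8, 12, 10, 12, 6, 10, 12], [8, 12, 8, 12, 10, 0, 12], [12, 8, 2, 12, 10, 0, 12], [12, 10, 12, 8, 12, 0, 0],
      [12, 8, 0, 12, 8, 12, 8], [10, 12, 8, 12, 4, 10, 12], [12, 8, 12, 4, 8, 0, 12], [12, 8, 12, 4, 8, 12, 8, 6],
      [12, 10, 12, 8, 12, 8, 8, 6], [12, 6, 8, 12, 10, 12, 6, 8], [0, 12, 8, 12, 6, 10, 12, 8]]).toCRep (by decide +kernel))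
      ha hb (by decide +kernel) trivial hx).imp (fun ⟨k, _, e⟩ => ?_) fun ⟨k, _, e⟩ => ?_ <;>
    exact (isConj_iff.2 ⟨k, e⟩).symm

end model

theorem syl3 (h : Spor.IsoJ2 G) (P : Sylow 3 G) : IsExtraspecial 3 (P : Subgroup G) ∧ Nat.card P = 27 ∧
    Nat.card (normalizer ((P : Subgroup G) : Set G)) = 216 ∧
      ∃ a b : G, orderOf a = 3 ∧ orderOf b = 3 ∧ ¬ IsConj a b ∧ ∀ c : G, orderOf c = 3 → IsConj c a ∨ IsConj c b := by
  haveI : Fact (Nat.Prime 3) := ⟨Nat.prime_three⟩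
  obtain ⟨_, _, hN, h0⟩ := modelJ2 h
  obtain ⟨Q, h1, h2, h3, h4⟩ := syl3' hN h0
  obtain ⟨g, hg⟩ := exists_conj_sylow h1 hN (by decide) P
  refine ⟨PGrp.ES_of_mulEquiv h2 (conjEquiv g hg), (Nat.card_congr (conjEquiv g hg).toEquiv).symm.trans h1, ?_, h4⟩
  rw [← hg, ← map_conj_normalizer, Comp.card_map_conj, h3]

end Cfsg.Agent.HJ
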